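import Cfsg.Agent.H495.TI.FJ

/-!
# Generation and projections on central characters (helper495)
-/

set_option autoImplicit false
set_option linter.unusedSectionVars false
set_option linter.unusedSimpArgs false
open Matrix Module

namespace Cfsg.Agent.H495.TI

open Cfsg.Agent.H162.Weil

variable {F : Type*} [Field F] {m : ℕ}

theorem ne_succ (k : Fin m) : (0 : Fin (m + 1)) ≠ k.succ := (Fin.succ_ne_zero k).symm

theorem tv_zero_eq_hb (j : Fin m) (h : (0 : Fin (m + 1)) ≠ j.succ) (b : F) :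
    tv 0 j.succ h b = hb (Pi.single j (-b)) := by
  apply Units.ext
  rw [tv_coe, hb_coe]
  refine up_ext ?_ ?_ ?_ ?_
  · simp [vecMulVec_apply, single_apply]
  · intro k
    by_cases hk : j = k
    · subst hk; simp [vecMulVec_apply, single_apply]
    · simp [vecMulVec_apply, single_apply, hk, Ne.symm hk]
  · intro k; simp [vecMulVec_apply, single_apply]
  · intro k l; simp [vecMulVec_apply, single_apply, ne_succ]

theorem dg_split (d : Fin (m + 1) → Fˣ) :
    dg d = ht 0 (d 0) * upG (dg fun i => d i.succ) := by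
  apply Units.ext
  rw [Units.val_mul, upG_coe, dg_coe, dg_coe, ht, dg_coe]
  have h : up 1 (diagonal fun i => ((d i.succ : Fˣ) : F)) =
      diagonal (Fin.cons 1 fun i => ((d i.succ : Fˣ) : F) : Fin (m + 1) → F) := by
    refine up_ext ?_ ?_ ?_ ?_
    · simp
    · intro k; simp [diagonal_apply, ne_succ]
    · intro k; simp [diagonal_apply]
    · intro k l; simp [diagonal_apply]
  rw [h, diagonal_mul_diagonal]
  congr 1
  ext i
  refine Fin.cases ?_ (fun i => ?_) i <;> simp

/-- **Generation** by the parabolic `Q Sp_2m`, the Siegel radical and `ww 0`. -/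
theorem gen_P0 (K : Subgroup (Sp (m + 1) F)) (hu : ∀ S : Sym (m + 1) F, uu S ∈ K)
    (hh : ∀ b : Fin m → F, mm (hb b) ∈ K) (he : ∀ g : Sp m F, emb g ∈ K)
    (hw : (ww 0 : Sp (m + 1) F) ∈ K) : K = ⊤ := by
  have htK : ∀ t : Fˣ, (mm (ht (0 : Fin (m + 1)) t) : Sp (m + 1) F) ∈ K := by
    intro t
    have h := ww_uu_ww (n := m + 1) 0 t
    have h1 : (mm (ht (0 : Fin (m + 1)) t) : Sp (m + 1) F) = (uu (sD 0 (t : F)))⁻¹ *
        (ww 0 * uu (sD 0 (-((t⁻¹ : Fˣ) : F))) * ww 0) * (uu (sD 0 (t : F)))⁻¹ * (ww 0)⁻¹ := by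
      rw [h]; group
    rw [h1]
    exact K.mul_mem (K.mul_mem (K.mul_mem (K.inv_mem (hu _))
      (K.mul_mem (K.mul_mem hw (hu _)) hw)) (K.inv_mem (hu _))) (K.inv_mem hw)
  have htv : ∀ (i j : Fin (m + 1)) (hij : i ≠ j) (b : F), mm (tv i j hij b) ∈ K := by
    intro i j hij b
    induction j using Fin.cases with
    | zero =>
      have h3 : mm (tv i 0 hij b) = ww 0 * uu (sE i 0 b) * (ww 0)⁻¹ := by
        rw [ww_mul_uu i 0 hij, mul_inv_cancel_right]
      rw [h3]
      exact K.mul_mem (K.mul_mem hw (hu _)) (K.inv_mem hw)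
    | succ j =>
      induction i using Fin.cases with
      | zero =>
        rw [tv_zero_eq_hb]
        exact hh _
      | succ i =>
        have h4 : i ≠ j := fun h => hij (by rw [h])
        have h5 := upG_tv i j h4 b
        rw [← h5, ← emb_mm]
        exact he _
  refine gen_top 0 K hu ?_ hw
  suffices h : ∀ M : Matrix (Fin (m + 1)) (Fin (m + 1)) F, det M ≠ 0 →
      ∀ A : GL (Fin (m + 1)) F, A.1 = M → mm A ∈ K by
    intro A
    refine h A.1 ?_ A rfl
    have := (GeneralLinearGroup.det A).ne_zero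
    rwa [GeneralLinearGroup.val_det_apply] at this
  intro M hM
  refine diagonal_transvection_induction_of_det_ne_zero (P := fun M =>
    ∀ A : GL (Fin (m + 1)) F, A.1 = M → mm A ∈ K) M hM ?_ ?_ ?_
  · intro D hD A hA
    have hD' : ∀ k, D k ≠ 0 := by
      intro k hk
      apply hD
      rw [det_diagonal]
      exact Finset.prod_eq_zero (Finset.mem_univ k) hk
    let d : Fin (m + 1) → Fˣ := fun k => Units.mk0 (D k) (hD' _)
    have h1 : A = dg d := by
      apply Units.ext
      rw [dg_coe, hA]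
      rfl
    rw [h1, dg_split, map_mul, ← emb_mm]
    exact K.mul_mem (htK _) (he _)
  · intro t A hA
    have h1 : A = tv t.i t.j t.hij t.c := by
      apply Units.ext
      rw [hA]
      rfl
    rw [h1]
    exact htv _ _ _ _
  · intro A B hA hB ihA ihB C hC
    let A' : GL (Fin (m + 1)) F := GeneralLinearGroup.mkOfDetNeZero A hA
    let B' : GL (Fin (m + 1)) F := GeneralLinearGroup.mkOfDetNeZero B hB
    have h1 : C = A' * B' := by
      apply Units.ext
      rw [hC]
      rfl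
    rw [h1, map_mul]
    exact K.mul_mem (ihA A' rfl) (ihB B' rfl)

/-- A subspace stable under the generators is invariant. -/
theorem stable_of_gen {V : Type*} [AddCommGroup V] [Module ℂ V]
    {ρ : Representation ℂ (Sp (m + 1) F) V} [Fintype F] (U : Submodule ℂ V)
    (hu : ∀ S : Sym (m + 1) F, ∀ v ∈ U, ρ (uu S) v ∈ U)
    (hh : ∀ b : Fin m → F, ∀ v ∈ U, ρ (mm (hb b)) v ∈ U)
    (he : ∀ g : Sp m F, ∀ v ∈ U, ρ (emb g) v ∈ U)
    (hw : ∀ v ∈ U, ρ (ww 0) v ∈ U) (g : Sp (m + 1) F) : ∀ v ∈ U, ρ g v ∈ U := by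
  let K : Subgroup (Sp (m + 1) F) :=
    { carrier := {g | ∀ v ∈ U, ρ g v ∈ U}
      one_mem' := by intro v hv; simpa using hv
      mul_mem' := by
        intro a b ha hb v hv
        rw [rho_mul]
        exact ha _ (hb _ hv)
      inv_mem' := by
        intro a ha
        have : Finite (Sp (m + 1) F) := Subtype.finite
        have hpow : ∀ k : ℕ, ∀ v ∈ U, ρ (a ^ k) v ∈ U := by
          intro k
          induction k with
          | zero => intro v hv; simpa using hv
          | succ k ih =>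
            intro v hv
            rw [pow_succ, rho_mul]
            exact ih _ (ha _ hv)
        have : a⁻¹ = a ^ (Nat.card (Sp (m + 1) F) - 1) := by
          rw [inv_eq_iff_mul_eq_one, ← pow_succ', Nat.sub_add_cancel Nat.card_pos, pow_card_eq_one']
        show ∀ v ∈ U, ρ a⁻¹ v ∈ U
        rw [this]
        exact hpow _ }
  have hK : K = ⊤ := gen_P0 K hu hh he hw
  have : g ∈ K := by rw [hK]; exact Subgroup.mem_top g
  exact this

/-! ### Projections -/

section proj

variable [Fintype F] {ψ : AddChar F ℂ} {V : Type*} [AddCommGroup V] [Module ℂ V]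

/-- projection on the central character `c` -/
noncomputable def eZ (ρ : Representation ℂ (Sp (m + 1) F) V) (ψ : AddChar F ℂ) (c : F) :
    V →ₗ[ℂ] V :=
  (Fintype.card F : ℂ)⁻¹ • ∑ s : F, ψ (-(c * s)) • ρ (uu (sR 0 s))

variable {ρ : Representation ℂ (Sp (m + 1) F) V}

theorem eZ_apply (c : F) (v : V) : eZ ρ ψ c v =
    (Fintype.card F : ℂ)⁻¹ • ∑ s : F, ψ (-(c * s)) • ρ (uu (sR 0 s)) v := by
  simp [eZ, LinearMap.sum_apply]

theorem eZ_mem (c : F) (v : V) (s : F) :
    ρ (uu (sR 0 s)) (eZ ρ ψ c v) = ψ (c * s) • eZ ρ ψ c v := by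
  rw [eZ_apply, map_smul, map_sum, smul_comm]
  congr 1
  rw [Finset.smul_sum]
  refine Fintype.sum_equiv (Equiv.addLeft s) _ _ fun t => ?_
  rw [map_smul, Equiv.coe_addLeft, ← rho_mul, ← uu_add, sR_add, smul_smul, add_zero]
  congr 1
  rw [← AddChar.map_add_eq_mul]
  congr 1
  ring

theorem card_ne : (Fintype.card F : ℂ) ≠ 0 := by
  exact_mod_cast Fintype.card_ne_zero

theorem eZ_of_mem {c : F} {v : V} (hv : ∀ s, ρ (uu (sR 0 s)) v = ψ (c * s) • v) :
    eZ ρ ψ c v = v := by
  rw [eZ_apply]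
  have : ∀ s : F, ψ (-(c * s)) • ρ (uu (sR 0 s)) v = v := by
    intro s
    rw [hv, smul_smul, ← AddChar.map_add_eq_mul, neg_add_cancel, AddChar.map_zero_eq_one,
      one_smul]
  simp only [this, Finset.sum_const, Finset.card_univ]
  rw [← Nat.cast_smul_eq_nsmul ℂ, smul_smul, inv_mul_cancel₀ card_ne, one_smul]

theorem sum_psi (hψ : ψ.IsPrimitive) {a : F} (ha : a ≠ 0) : ∑ s : F, ψ (a * s) = 0 := by
  classical
  have h := AddChar.sum_mulShift (ψ := ψ) a hψ
  rw [if_neg ha] at h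
  rw [← Nat.cast_zero, ← h]
  refine Finset.sum_congr rfl fun s _ => ?_
  rw [mul_comm]

theorem eZ_of_ne (hψ : ψ.IsPrimitive) {c d : F} (hcd : c ≠ d) {v : V}
    (hv : ∀ s, ρ (uu (sR 0 s)) v = ψ (d * s) • v) : eZ ρ ψ c v = 0 := by
  rw [eZ_apply]
  have : ∀ s : F, ψ (-(c * s)) • ρ (uu (sR 0 s)) v = ψ ((d - c) * s) • v := by
    intro s
    rw [hv, smul_smul, ← AddChar.map_add_eq_mul]
    congr 2
    ring
  simp only [this]
  rw [← Finset.sum_smul, sum_psi hψ (sub_ne_zero.mpr hcd.symm), zero_smul, smul_zero]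

theorem sum_eZ (hψ : ψ.IsPrimitive) (v : V) : ∑ c : F, eZ ρ ψ c v = v := by
  classical
  simp only [eZ_apply]
  rw [← Finset.smul_sum, Finset.sum_comm]
  have : ∀ s : F, ∑ c : F, ψ (-(c * s)) • ρ (uu (sR 0 s)) v =
      if s = 0 then (Fintype.card F : ℂ) • v else 0 := by
    intro s
    rw [← Finset.sum_smul]
    split_ifs with hs
    · subst hs
      have h0 : (sR (0 : Fin m → F) 0) = 0 := by
        apply Subtype.ext
        refine up_ext ?_ ?_ ?_ ?_ <;> intros <;> simp
      rw [h0, uu_zero, map_one, Module.End.one_apply]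
      congr 1
      simp
    · have h1 : ∑ c : F, ψ (-(c * s)) = 0 := by
        rw [← sum_psi hψ (neg_ne_zero.mpr hs)]
        refine Finset.sum_congr rfl fun c _ => ?_
        congr 1
        ring
      rw [h1, zero_smul]
  rw [Finset.sum_congr rfl fun s _ => this s]
  rw [Finset.sum_ite_eq' Finset.univ (0 : F), if_pos (Finset.mem_univ _), smul_smul,
    inv_mul_cancel₀ card_ne, one_smul]

theorem eZ_comm {c : F} {g : Sp (m + 1) F} (hg : ∀ s, g * uu (sR 0 s) = uu (sR 0 s) * g) (v : V) :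
    eZ ρ ψ c (ρ g v) = ρ g (eZ ρ ψ c v) := by
  rw [eZ_apply, eZ_apply, map_smul, map_sum]
  congr 1
  refine Finset.sum_congr rfl fun s _ => ?_
  rw [map_smul, ← rho_mul, ← rho_mul, hg]

theorem hb_comm_ctr (b : Fin m → F) (s : F) :
    mm (hb b) * uu (sR 0 s) = uu (sR 0 s) * mm (hb b) := by
  rw [hb_uu]
  simp

theorem uu_comm_ctr (S : Sym (m + 1) F) (s : F) :
    uu S * uu (sR 0 s) = uu (sR 0 s) * uu S := by
  rw [← uu_add, ← uu_add]
  congr 1
  exact add_comm _ _

theorem eZ_emb (c : F) (g : Sp m F) (v : V) : eZ ρ ψ c (ρ (emb g) v) = ρ (emb g) (eZ ρ ψ c v) :=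
  eZ_comm (emb_comm_ctr g) v

theorem eZ_uu (c : F) (S : Sym (m + 1) F) (v : V) :
    eZ ρ ψ c (ρ (uu S) v) = ρ (uu S) (eZ ρ ψ c v) :=
  eZ_comm (uu_comm_ctr S) v

theorem eZ_hb (c : F) (b : Fin m → F) (v : V) :
    eZ ρ ψ c (ρ (mm (hb b)) v) = ρ (mm (hb b)) (eZ ρ ψ c v) :=
  eZ_comm (hb_comm_ctr b) v

/-- `ww 0` commutes with `emb g`. -/
theorem ww_zero_comm_emb (g : Sp m F) : ww 0 * emb g = emb g * ww 0 := by
  apply Subtype.ext
  rw [Submonoid.coe_mul, Submonoid.coe_mul, emb_coe, embM, ww_coe, fromBlocks_multiply,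
    fromBlocks_multiply]
  have h1 : (single 0 0 1 : Matrix (Fin (m + 1)) (Fin (m + 1)) F) = up 1 0 := by
    refine up_ext ?_ ?_ ?_ ?_ <;> intros <;> simp [single_apply, ne_succ]
  have h2 : (1 - single 0 0 1 : Matrix (Fin (m + 1)) (Fin (m + 1)) F) = up 0 1 := by
    rw [h1, ← up_one, up_sub, sub_self, sub_zero]
  rw [h2, h1, up_neg]
  simp only [up_mul, up_add]
  simp

end proj

end Cfsg.Agent.H495.TI
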