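import Cfsg.Agent.H162.WeilUniq

/-!
# The embedding of `Sp_2m` in `Sp_2(m+1)` and the Heisenberg group (helper495)
-/

set_option autoImplicit false
set_option linter.unusedSectionVars false
set_option linter.unusedSimpArgs false
open Matrix

namespace Cfsg.Agent.H495.TI

open Cfsg.Agent.H162.Weil

variable {F : Type*} [Field F] {m : ℕ}

/-- Block matrix `diag(c, A)`. -/
def up (c : F) (A : Matrix (Fin m) (Fin m) F) : Matrix (Fin (m + 1)) (Fin (m + 1)) F :=
  Matrix.of (Fin.cons (Fin.cons c 0) (fun i => Fin.cons 0 (A i)))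

@[simp] theorem up_00 (c : F) (A : Matrix (Fin m) (Fin m) F) : up c A 0 0 = c := rfl
@[simp] theorem up_0s (c : F) (A : Matrix (Fin m) (Fin m) F) (j : Fin m) :
    up c A 0 j.succ = 0 := rfl
@[simp] theorem up_s0 (c : F) (A : Matrix (Fin m) (Fin m) F) (i : Fin m) :
    up c A i.succ 0 = 0 := rfl
@[simp] theorem up_ss (c : F) (A : Matrix (Fin m) (Fin m) F) (i j : Fin m) :
    up c A i.succ j.succ = A i j := rfl

theorem up_ext {A B : Matrix (Fin (m + 1)) (Fin (m + 1)) F} (h00 : A 0 0 = B 0 0)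
    (h0s : ∀ j : Fin m, A 0 j.succ = B 0 j.succ) (hs0 : ∀ i : Fin m, A i.succ 0 = B i.succ 0)
    (hss : ∀ i j : Fin m, A i.succ j.succ = B i.succ j.succ) : A = B := by
  ext i j
  refine Fin.cases ?_ (fun i => ?_) i
  · exact Fin.cases h00 h0s j
  · exact Fin.cases (hs0 i) (hss i) j

theorem up_mul (c d : F) (A B : Matrix (Fin m) (Fin m) F) :
    up c A * up d B = up (c * d) (A * B) := by
  refine up_ext ?_ ?_ ?_ ?_ <;> intros <;> simp [Matrix.mul_apply, Fin.sum_univ_succ]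

theorem up_add (c d : F) (A B : Matrix (Fin m) (Fin m) F) :
    up c A + up d B = up (c + d) (A + B) := by
  refine up_ext ?_ ?_ ?_ ?_ <;> intros <;> simp

theorem up_neg (c : F) (A : Matrix (Fin m) (Fin m) F) : -up c A = up (-c) (-A) := by
  refine up_ext ?_ ?_ ?_ ?_ <;> intros <;> simp

theorem up_sub (c d : F) (A B : Matrix (Fin m) (Fin m) F) :
    up c A - up d B = up (c - d) (A - B) := by
  refine up_ext ?_ ?_ ?_ ?_ <;> intros <;> simp

theorem up_transpose (c : F) (A : Matrix (Fin m) (Fin m) F) : (up c A)ᵀ = up c Aᵀ := by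
  refine up_ext ?_ ?_ ?_ ?_ <;> intros <;> simp

theorem up_zero : up (0 : F) (0 : Matrix (Fin m) (Fin m) F) = 0 := by
  refine up_ext ?_ ?_ ?_ ?_ <;> intros <;> simp

theorem up_one : up (1 : F) (1 : Matrix (Fin m) (Fin m) F) = 1 := by
  refine up_ext ?_ ?_ ?_ ?_ <;> intros <;> simp [Matrix.one_apply, Fin.succ_ne_zero, eq_comm]

theorem up_single (i j : Fin m) (x : F) : up 0 (single i j x) = single i.succ j.succ x := by
  refine up_ext ?_ ?_ ?_ ?_ <;> intros <;>
    simp [Matrix.single_apply, Fin.succ_ne_zero, (Fin.succ_ne_zero _).symm]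

/-- `GL_m` in `GL_(m+1)`. -/
def upG : GL (Fin m) F →* GL (Fin (m + 1)) F where
  toFun h := ⟨up 1 (h : Matrix (Fin m) (Fin m) F), up 1 ((h⁻¹ : GL (Fin m) F) : Matrix _ _ F), by
    rw [up_mul, ← Units.val_mul, mul_inv_cancel, one_mul, Units.val_one, up_one], by
    rw [up_mul, ← Units.val_mul, inv_mul_cancel, one_mul, Units.val_one, up_one]⟩
  map_one' := by
    apply Units.ext
    show up 1 _ = _
    rw [Units.val_one, up_one]; rfl
  map_mul' g h := by
    apply Units.ext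
    show up 1 _ = up 1 _ * up 1 _
    rw [Units.val_mul, up_mul, one_mul]

theorem upG_coe (h : GL (Fin m) F) : ((upG h : GL (Fin (m + 1)) F) : Matrix _ _ F) =
    up 1 (h : Matrix (Fin m) (Fin m) F) := rfl

theorem upG_inv_coe (h : GL (Fin m) F) : (((upG h)⁻¹ : GL (Fin (m + 1)) F) : Matrix _ _ F) =
    up 1 ((h⁻¹ : GL (Fin m) F) : Matrix (Fin m) (Fin m) F) := rfl

theorem upG_tv (i j : Fin m) (h : i ≠ j) (b : F) :
    upG (tv i j h b) = tv i.succ j.succ (fun e => h (Fin.succ_injective _ e)) b := by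
  apply Units.ext
  rw [upG_coe, tv_coe, tv_coe, ← up_single, ← up_one, up_add, add_zero]

/-- symmetric matrices -/
def upS (S : Sym m F) : Sym (m + 1) F := ⟨up 0 S.1, by
  have := S.2
  rw [mem_Sym] at this ⊢
  rw [up_transpose, this]⟩

theorem upS_coe (S : Sym m F) : (upS S).1 = up 0 S.1 := rfl

theorem blocks (g : Matrix (Fin m ⊕ Fin m) (Fin m ⊕ Fin m) F) :
    fromBlocks g.toBlocks₁₁ g.toBlocks₁₂ g.toBlocks₂₁ g.toBlocks₂₂ = g := fromBlocks_toBlocks g

/-- the matrix of `emb g` -/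
def embM (g : Matrix (Fin m ⊕ Fin m) (Fin m ⊕ Fin m) F) :
    Matrix (Fin (m + 1) ⊕ Fin (m + 1)) (Fin (m + 1) ⊕ Fin (m + 1)) F :=
  fromBlocks (up 1 g.toBlocks₁₁) (up 0 g.toBlocks₁₂) (up 0 g.toBlocks₂₁) (up 1 g.toBlocks₂₂)

theorem embM_blocks (A B C D : Matrix (Fin m) (Fin m) F) :
    embM (fromBlocks A B C D) = fromBlocks (up 1 A) (up 0 B) (up 0 C) (up 1 D) := rfl

theorem embM_mul (g h : Matrix (Fin m ⊕ Fin m) (Fin m ⊕ Fin m) F) :
    embM (g * h) = embM g * embM h := by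
  conv_lhs => rw [← blocks g, ← blocks h, fromBlocks_multiply]
  rw [embM_blocks, embM, embM, fromBlocks_multiply]
  simp only [up_mul, up_add]
  simp

theorem embM_one : embM (1 : Matrix (Fin m ⊕ Fin m) (Fin m ⊕ Fin m) F) = 1 := by
  rw [← fromBlocks_one, embM_blocks, up_one, up_zero, fromBlocks_one]

theorem embM_mem {g : Matrix (Fin m ⊕ Fin m) (Fin m ⊕ Fin m) F}
    (hg : g ∈ Matrix.symplecticGroup (Fin m) F) :
    embM g ∈ Matrix.symplecticGroup (Fin (m + 1)) F := by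
  rw [← blocks g, SymplecticGroup.fromBlocks_mem_iff] at hg
  rw [embM, SymplecticGroup.fromBlocks_mem_iff]
  obtain ⟨h1, h2, h3⟩ := hg
  refine ⟨?_, ?_, ?_⟩
  · simp only [up_transpose, up_mul, h1, mul_zero, zero_mul]
  · simp only [up_transpose, up_mul, h2, mul_zero, zero_mul]
  · simp only [up_transpose, up_mul, up_sub, h3]
    simp [up_one]

/-- **The embedding** of `Sp_2m` in `Sp_2(m+1)` (first coordinate pair fixed). -/
def emb : Sp m F →* Sp (m + 1) F where
  toFun g := ⟨embM g.1, embM_mem g.2⟩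
  map_one' := Subtype.ext embM_one
  map_mul' g h := Subtype.ext (embM_mul g.1 h.1)

theorem emb_coe (g : Sp m F) : (emb g).1 = embM g.1 := rfl

theorem emb_uu (S : Sym m F) : emb (uu S) = uu (upS S) := by
  apply Subtype.ext
  show embM (fromBlocks 1 S.1 0 1) = fromBlocks 1 (up 0 S.1) 0 1
  rw [embM_blocks, up_one, up_zero]

theorem emb_mm (h : GL (Fin m) F) : emb (mm h) = mm (upG h) := by
  apply Subtype.ext
  rw [emb_coe, mm_coe, mm_coe, embM_blocks, up_zero, upG_coe, upG_inv_coe, up_transpose]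

theorem emb_ww (j : Fin m) : emb (ww j : Sp m F) = ww j.succ := by
  apply Subtype.ext
  rw [emb_coe, ww_coe, ww_coe, embM_blocks, up_single]
  have h1 : up (1 : F) (1 - single j j 1) = 1 - single j.succ j.succ 1 := by
    rw [← up_single, ← up_one, up_sub, sub_zero]
  have h2 : up (0 : F) (-single j j 1) = -single j.succ j.succ 1 := by
    rw [← up_single, up_neg, neg_zero]
  rw [h1, h2]

/-! ### Heisenberg group -/

/-- vector in the first block -/
def inc (a : Fin m → F) : Fin (m + 1) → F := Fin.cons 0 a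

@[simp] theorem inc_zero (a : Fin m → F) : inc a 0 = 0 := rfl
@[simp] theorem inc_succ (a : Fin m → F) (i : Fin m) : inc a i.succ = a i := rfl

/-- the symmetric matrix with zeroth row `(s, a)` and zero elsewhere -/
def sR (a : Fin m → F) (s : F) : Sym (m + 1) F :=
  ⟨Matrix.of (Fin.cons (Fin.cons s a) (fun i => Fin.cons (a i) 0)), by
    rw [mem_Sym]
    refine up_ext ?_ ?_ ?_ ?_ <;> intros <;> simp⟩

@[simp] theorem sR_00 (a : Fin m → F) (s : F) : (sR a s).1 0 0 = s := rfl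
@[simp] theorem sR_0s (a : Fin m → F) (s : F) (j : Fin m) : (sR a s).1 0 j.succ = a j := rfl
@[simp] theorem sR_s0 (a : Fin m → F) (s : F) (j : Fin m) : (sR a s).1 j.succ 0 = a j := rfl
@[simp] theorem sR_ss (a : Fin m → F) (s : F) (i j : Fin m) : (sR a s).1 i.succ j.succ = 0 := rfl

theorem sR_add (a b : Fin m → F) (s t : F) : sR a s + sR b t = sR (a + b) (s + t) := by
  apply Subtype.ext
  refine up_ext ?_ ?_ ?_ ?_ <;> intros <;> simp

theorem sym_decomp (S : Sym (m + 1) F) : ∃ (a : Fin m → F) (s : F) (S' : Sym m F),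
    S = sR a s + upS S' := by
  refine ⟨fun j => S.1 0 j.succ, S.1 0 0, ⟨Matrix.of fun i j => S.1 i.succ j.succ, ?_⟩, ?_⟩
  · rw [mem_Sym]
    ext i j
    exact Sym.apply S j.succ i.succ
  · apply Subtype.ext
    refine up_ext ?_ ?_ ?_ ?_
    · simp [upS_coe]
    · intro j; simp [upS_coe]
    · intro j
      simp only [AddSubgroup.coe_add, Matrix.add_apply, sR_s0, upS_coe, up_s0, add_zero]
      exact Sym.apply S j.succ 0
    · intro i j; simp [upS_coe]

/-- the first basis vector -/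
def e0 (m : ℕ) (F : Type*) [Field F] : Fin (m + 1) → F := Fin.cons 1 0

theorem e0_eq : e0 m F = Pi.single 0 1 := by
  ext i
  refine Fin.cases ?_ (fun i => ?_) i <;> simp [e0]

@[simp] theorem e0_zero : e0 m F 0 = 1 := rfl
@[simp] theorem e0_succ (i : Fin m) : e0 m F i.succ = 0 := rfl

theorem inc_dot_e0 (b : Fin m → F) : inc b ⬝ᵥ e0 m F = 0 := by
  simp [dotProduct, Fin.sum_univ_succ]

theorem inc_dot_inc (a b : Fin m → F) : inc a ⬝ᵥ inc b = a ⬝ᵥ b := by
  simp [dotProduct, Fin.sum_univ_succ]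

theorem inc_add (a b : Fin m → F) : inc (a + b) = inc a + inc b := by
  ext i
  refine Fin.cases ?_ (fun i => ?_) i <;> simp

theorem inc_neg (a : Fin m → F) : inc (-a) = -inc a := by
  ext i
  refine Fin.cases ?_ (fun i => ?_) i <;> simp

/-- `1 - e_0 bᵀ` -/
def hb (b : Fin m → F) : GL (Fin (m + 1)) F :=
  ⟨1 - vecMulVec (e0 m F) (inc b), 1 + vecMulVec (e0 m F) (inc b), by
    rw [Matrix.sub_mul, Matrix.one_mul, Matrix.mul_add, Matrix.mul_one, vecMulVec_mul_self,
      inc_dot_e0, zero_smul, add_zero, add_sub_cancel_right], by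
    rw [Matrix.add_mul, Matrix.one_mul, Matrix.mul_sub, Matrix.mul_one, vecMulVec_mul_self,
      inc_dot_e0, zero_smul, sub_zero, sub_add_cancel]⟩

theorem hb_coe (b : Fin m → F) :
    ((hb b : GL (Fin (m + 1)) F) : Matrix (Fin (m + 1)) (Fin (m + 1)) F) =
    1 - vecMulVec (e0 m F) (inc b) := rfl

theorem hb_inv_coe (b : Fin m → F) :
    (((hb b)⁻¹ : GL (Fin (m + 1)) F) : Matrix (Fin (m + 1)) (Fin (m + 1)) F) =
    1 + vecMulVec (e0 m F) (inc b) := rfl

theorem hb_add (a b : Fin m → F) : hb (a + b) = hb a * hb b := by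
  apply Units.ext
  rw [Units.val_mul, hb_coe, hb_coe, hb_coe, Matrix.sub_mul, Matrix.one_mul, Matrix.mul_sub,
    Matrix.mul_one, vecMulVec_mul_vecMulVec, inc_dot_e0, zero_smul, inc_add, vecMulVec_add,
    vecMulVec_zero]
  abel

theorem hb_zero : hb (0 : Fin m → F) = 1 := by
  apply Units.ext
  rw [hb_coe]
  have : inc (0 : Fin m → F) = 0 := by
    ext i; refine Fin.cases ?_ (fun i => ?_) i <;> simp
  rw [this]
  simp

/-- the Heisenberg element with `w = (a, b)`, `s` -/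
def qq (a b : Fin m → F) (s : F) : Sp (m + 1) F := uu (sR a (s - a ⬝ᵥ b)) * mm (hb b)

theorem sR_coe (a : Fin m → F) (s : F) : (sR a s).1 =
    vecMulVec (inc a) (e0 m F) + vecMulVec (e0 m F) (inc a) + s • vecMulVec (e0 m F) (e0 m F) := by
  refine up_ext ?_ ?_ ?_ ?_ <;> intros <;> simp [vecMulVec_apply, Fin.succ_ne_zero]

theorem qq_coe (a b : Fin m → F) (s : F) : (qq a b s).1 =
    fromBlocks (1 - vecMulVec (e0 m F) (inc b)) (sR a s).1 0
      (1 + vecMulVec (inc b) (e0 m F)) := by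
  rw [qq, Submonoid.coe_mul, uu_coe, mm_coe, fromBlocks_multiply, hb_coe, hb_inv_coe,
    transpose_add, transpose_one, transpose_vecMulVec]
  congr 1
  · simp
  · rw [Matrix.mul_add, Matrix.mul_one, mul_vecMulVec, Matrix.one_mul, zero_add]
    have h1 : (sR a (s - a ⬝ᵥ b)).1 *ᵥ inc b = (a ⬝ᵥ b) • e0 m F := by
      rw [sR_coe, add_mulVec, add_mulVec, smul_mulVec, vecMulVec_mulVec, vecMulVec_mulVec,
        vecMulVec_mulVec, dotProduct_comm (e0 m F), inc_dot_e0, inc_dot_inc]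
      simp
    rw [h1, sR_coe, sR_coe, smul_vecMulVec, sub_smul]
    abel
  · simp
  · simp

/-- vectors of the smaller space -/
def incc (w : Fin m ⊕ Fin m → F) : Fin (m + 1) ⊕ Fin (m + 1) → F :=
  Sum.elim (inc (w ∘ Sum.inl)) (inc (w ∘ Sum.inr))

/-- the centre -/
def ee (m : ℕ) (F : Type*) [Field F] : Fin (m + 1) ⊕ Fin (m + 1) → F := Sum.elim (e0 m F) 0

theorem up_mulVec (c : F) (A : Matrix (Fin m) (Fin m) F) (a : Fin m → F) :
    up c A *ᵥ inc a = inc (A *ᵥ a) := by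
  ext i
  refine Fin.cases ?_ (fun i => ?_) i <;> simp [mulVec, dotProduct, Fin.sum_univ_succ]

theorem up_mulVec_e0 (c : F) (A : Matrix (Fin m) (Fin m) F) :
    up c A *ᵥ e0 m F = c • e0 m F := by
  ext i
  refine Fin.cases ?_ (fun i => ?_) i <;> simp [mulVec, dotProduct, Fin.sum_univ_succ]

theorem embM_incc (g : Matrix (Fin m ⊕ Fin m) (Fin m ⊕ Fin m) F) (w : Fin m ⊕ Fin m → F) :
    embM g *ᵥ incc w = incc (g *ᵥ w) := by
  have h1 : g *ᵥ w = Sum.elim (g.toBlocks₁₁ *ᵥ (w ∘ Sum.inl) + g.toBlocks₁₂ *ᵥ (w ∘ Sum.inr))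
      (g.toBlocks₂₁ *ᵥ (w ∘ Sum.inl) + g.toBlocks₂₂ *ᵥ (w ∘ Sum.inr)) := by
    conv_lhs => rw [← blocks g, ← Sum.elim_comp_inl_inr w, fromBlocks_mulVec]
    simp
  rw [h1, incc, incc, embM, fromBlocks_mulVec]
  simp only [Sum.elim_comp_inl, Sum.elim_comp_inr, up_mulVec, inc_add]

theorem embM_ee (g : Matrix (Fin m ⊕ Fin m) (Fin m ⊕ Fin m) F) :
    embM g *ᵥ ee m F = ee m F := by
  rw [embM, ee, fromBlocks_mulVec]
  simp only [Sum.elim_comp_inl, Sum.elim_comp_inr, up_mulVec_e0, mulVec_zero, add_zero, one_smul,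
    zero_smul]

theorem J_mulVec {k : ℕ} (x y : Fin k → F) :
    Matrix.J (Fin k) F *ᵥ Sum.elim x y = Sum.elim (-y) x := by
  rw [Matrix.J, fromBlocks_mulVec]
  simp only [Sum.elim_comp_inl, Sum.elim_comp_inr, zero_mulVec, neg_mulVec, one_mulVec, zero_add,
    add_zero]

/-- The Heisenberg elements as rank one perturbations. -/
theorem qq_coe' (w : Fin m ⊕ Fin m → F) (s : F) : (qq (w ∘ Sum.inl) (w ∘ Sum.inr) s).1 =
    1 + vecMulVec (incc w) (Matrix.J (Fin (m + 1)) F *ᵥ ee m F) +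
      vecMulVec (ee m F) (Matrix.J (Fin (m + 1)) F *ᵥ incc w) +
      s • vecMulVec (ee m F) (Matrix.J (Fin (m + 1)) F *ᵥ ee m F) := by
  rw [qq_coe, sR_coe, incc, ee, J_mulVec, J_mulVec]
  ext i j
  rcases i with i | i <;> rcases j with j | j <;>
    simp [vecMulVec_apply, Matrix.one_apply, sub_eq_add_neg]

theorem J_emb (g : Sp m F) (v : Fin (m + 1) ⊕ Fin (m + 1) → F) :
    (Matrix.J (Fin (m + 1)) F *ᵥ (embM g.1 *ᵥ v)) ᵥ* embM g.1 =
      Matrix.J (Fin (m + 1)) F *ᵥ v := by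
  have h := SymplecticGroup.mem_iff'.mp (emb g).2
  rw [emb_coe] at h
  rw [← mulVec_transpose, mulVec_mulVec, mulVec_mulVec, h]

/-- **Conjugation**. -/
theorem emb_qq (g : Sp m F) (w : Fin m ⊕ Fin m → F) (s : F) :
    emb g * qq (w ∘ Sum.inl) (w ∘ Sum.inr) s =
      qq ((g.1 *ᵥ w) ∘ Sum.inl) ((g.1 *ᵥ w) ∘ Sum.inr) s * emb g := by
  apply Subtype.ext
  rw [Submonoid.coe_mul, Submonoid.coe_mul, qq_coe', qq_coe', emb_coe]
  simp only [Matrix.mul_add, Matrix.add_mul, Matrix.mul_one, Matrix.one_mul, Matrix.mul_smul,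
    Matrix.smul_mul, mul_vecMulVec, vecMulVec_mul, embM_incc, embM_ee]
  have h1 := J_emb g (ee m F)
  rw [embM_ee] at h1
  have h2 := J_emb g (incc w)
  rw [embM_incc] at h2
  rw [h1, h2]

end Cfsg.Agent.H495.TI
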