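import Cfsg.Agent.H495.TI.Emb
import Cfsg.Agent.H162.WeilIrr

/-!
# Fourier–Jacobi modules (helper495)

`V` a representation of `Sp_2(m+1)(F)`. `MM ρ ψ c` is the space of linear maps from the model
`W m F` of the Heisenberg group to `V` commuting with the Heisenberg group `Q`; the group `Sp_2m`
acts on it by `τ g φ = ρ (emb g) ∘ φ ∘ ω (g⁻¹)`.
-/

set_option autoImplicit false
set_option linter.unusedSectionVars false
set_option linter.unusedSimpArgs false
open Matrix Module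

namespace Cfsg.Agent.H495.TI

open Cfsg.Agent.H162.Weil

variable {F : Type*} [Field F] {m : ℕ} [Fintype F] {ψ : AddChar F ℂ} {c : F}

/-- The Weil representation intertwines the Heisenberg operators. -/
theorem weil_isInt {ω : Representation ℂ (Sp m F) (W m F)} (hω : IsWeil ψ c ω) (j : Fin m)
    (g : Sp m F) (w : Fin m ⊕ Fin m → F) (f : W m F) :
    ω g (Mop ψ c w f) =
      Mop ψ c ((g : Matrix (Fin m ⊕ Fin m) (Fin m ⊕ Fin m) F) *ᵥ w) (ω g f) := by
  revert w f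
  refine gen_induct j (P := fun g => ∀ w f, ω g (Mop ψ c w f) =
      Mop ψ c ((g : Matrix (Fin m ⊕ Fin m) (Fin m ⊕ Fin m) F) *ᵥ w) (ω g f)) ?_ ?_ ?_ ?_ ?_ g
  · intro w f
    simp
  · intro g h hg hh w f
    rw [rho_mul, hh, hg, Submonoid.coe_mul, mulVec_mulVec, rho_mul]
  · intro S w f
    rw [hω.w1, hω.w1]
    exact (isInt_uu S).1 w f
  · intro h w f
    obtain ⟨d, -, hd⟩ := hω.w3 h
    rw [hd, hd, map_smul]
    congr 1
    exact (isInt_mm h).1 w f
  · intro w f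
    obtain ⟨d, -, hd⟩ := hω.w4 j
    rw [hd, hd, map_smul]
    congr 1
    exact (isInt_ww hω.prim hω.two hω.lam0 j).1 w f

variable {V : Type*} [AddCommGroup V] [Module ℂ V]

/-- The multiplicity space. -/
def MM (ρ : Representation ℂ (Sp (m + 1) F) V) (ψ : AddChar F ℂ) (c : F) :
    Submodule ℂ (W m F →ₗ[ℂ] V) where
  carrier := {φ | (∀ (w : Fin m ⊕ Fin m → F) (f : W m F),
      φ (Mop ψ c w f) = ρ (qq (w ∘ Sum.inl) (w ∘ Sum.inr) 0) (φ f)) ∧
      ∀ (s : F) (f : W m F), ρ (uu (sR 0 s)) (φ f) = ψ (c * s) • φ f}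
  add_mem' {φ φ'} h h' := by
    refine ⟨fun w f => ?_, fun s f => ?_⟩
    · simp only [LinearMap.add_apply, map_add, h.1, h'.1]
    · simp only [LinearMap.add_apply, map_add, h.2, h'.2, smul_add]
  zero_mem' := by
    refine ⟨fun w f => ?_, fun s f => ?_⟩ <;> simp
  smul_mem' a φ h := by
    refine ⟨fun w f => ?_, fun s f => ?_⟩
    · simp only [LinearMap.smul_apply, map_smul, h.1]
    · simp only [LinearMap.smul_apply, map_smul, h.2, smul_comm a]

variable {ρ : Representation ℂ (Sp (m + 1) F) V}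

theorem mem_MM {φ : W m F →ₗ[ℂ] V} : φ ∈ MM ρ ψ c ↔ (∀ (w : Fin m ⊕ Fin m → F) (f : W m F),
      φ (Mop ψ c w f) = ρ (qq (w ∘ Sum.inl) (w ∘ Sum.inr) 0) (φ f)) ∧
      ∀ (s : F) (f : W m F), ρ (uu (sR 0 s)) (φ f) = ψ (c * s) • φ f := Iff.rfl

/-- `emb g` commutes with the centre. -/
theorem emb_comm_ctr (g : Sp m F) (s : F) : emb g * uu (sR 0 s) = uu (sR 0 s) * emb g := by
  have h := emb_qq g 0 s
  have h0 : ∀ s : F, qq (0 : Fin m → F) 0 s = uu (sR 0 s) := by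
    intro s
    rw [qq, hb_zero, map_one, mul_one]
    simp
  rw [mulVec_zero] at h
  have h1 : (0 : Fin m ⊕ Fin m → F) ∘ Sum.inl = 0 := rfl
  have h2 : (0 : Fin m ⊕ Fin m → F) ∘ Sum.inr = 0 := rfl
  rwa [h1, h2, h0] at h

theorem tau_mem {ω : Representation ℂ (Sp m F) (W m F)} (hω : IsWeil ψ c ω) (j : Fin m)
    (g : Sp m F) {φ : W m F →ₗ[ℂ] V} (hφ : φ ∈ MM ρ ψ c) :
    (ρ (emb g)) ∘ₗ φ ∘ₗ (ω g⁻¹) ∈ MM ρ ψ c := by
  refine ⟨fun w f => ?_, fun s f => ?_⟩
  · simp only [LinearMap.comp_apply]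
    rw [weil_isInt hω j, hφ.1, ← rho_mul, emb_qq, rho_mul, mulVec_mulVec]
    have : (g : Matrix (Fin m ⊕ Fin m) (Fin m ⊕ Fin m) F) *
        ((g⁻¹ : Sp m F) : Matrix (Fin m ⊕ Fin m) (Fin m ⊕ Fin m) F) = 1 := by
      rw [← Submonoid.coe_mul, mul_inv_cancel]; rfl
    rw [this, one_mulVec]
  · simp only [LinearMap.comp_apply]
    rw [← rho_mul, ← emb_comm_ctr, rho_mul, hφ.2, map_smul]

/-- **The Fourier–Jacobi representation** of `Sp_2m`. -/
noncomputable def tau {ω : Representation ℂ (Sp m F) (W m F)} (hω : IsWeil ψ c ω) (j : Fin m)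
    (ρ : Representation ℂ (Sp (m + 1) F) V) : Representation ℂ (Sp m F) (MM ρ ψ c) where
  toFun g :=
    { toFun := fun φ => ⟨(ρ (emb g)) ∘ₗ φ.1 ∘ₗ (ω g⁻¹), tau_mem hω j g φ.2⟩
      map_add' := fun φ φ' => by
        apply Subtype.ext
        ext f
        simp
      map_smul' := fun a φ => by
        apply Subtype.ext
        ext f
        simp }
  map_one' := by
    ext φ f
    simp
  map_mul' g h := by
    ext φ f
    simp [_root_.mul_inv_rev]

theorem tau_apply {ω : Representation ℂ (Sp m F) (W m F)} (hω : IsWeil ψ c ω) (j : Fin m)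
    (g : Sp m F) (φ : MM ρ ψ c) (f : W m F) :
    (tau hω j ρ g φ).1 f = ρ (emb g) (φ.1 (ω g⁻¹ f)) := rfl

theorem emb_apply {ω : Representation ℂ (Sp m F) (W m F)} (hω : IsWeil ψ c ω) (j : Fin m)
    (g : Sp m F) (φ : MM ρ ψ c) (f : W m F) :
    ρ (emb g) (φ.1 f) = (tau hω j ρ g φ).1 (ω g f) := by
  rw [tau_apply, ← rho_mul, inv_mul_cancel, map_one, Module.End.one_apply]

/-! ### Evaluation at `dl 0` -/

/-- vectors on which the Siegel part of the Heisenberg group acts by the central character `c` -/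
def UU (ρ : Representation ℂ (Sp (m + 1) F) V) (ψ : AddChar F ℂ) (c : F) : Submodule ℂ V where
  carrier := {v | ∀ (a : Fin m → F) (s : F), ρ (uu (sR a s)) v = ψ (c * s) • v}
  add_mem' {v v'} h h' := by
    intro a s
    rw [map_add, h, h', smul_add]
  zero_mem' := by intro a s; simp
  smul_mem' d v h := by
    intro a s
    rw [map_smul, h, smul_comm]

theorem mem_UU {v : V} : v ∈ UU ρ ψ c ↔
    ∀ (a : Fin m → F) (s : F), ρ (uu (sR a s)) v = ψ (c * s) • v := Iff.rfl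

theorem Mop_dl (a b x : Fin m → F) : Mop ψ c (Sum.elim a b) (dl x : W m F) =
    ψ (-c * (2 * (a ⬝ᵥ (x - b)) + a ⬝ᵥ b)) • dl (x - b) := by
  ext z
  rw [Mop_apply, Pi.smul_apply, smul_eq_mul]
  by_cases h : z = x - b
  · subst h
    rw [sub_add_cancel, dl_self, dl_self]
  · rw [dl_ne h, dl_ne (fun e => h (by rw [← e]; abel)), mul_zero, mul_zero]

theorem qq_zero_right (a : Fin m → F) (s : F) : qq a 0 s = uu (sR a s) := by
  rw [qq, hb_zero, map_one, mul_one]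
  simp

theorem qq_zero_left (b : Fin m → F) : qq 0 b 0 = mm (hb b) := by
  rw [qq]
  have : (sR (0 : Fin m → F) (0 - 0 ⬝ᵥ b)) = 0 := by
    apply Subtype.ext
    refine up_ext ?_ ?_ ?_ ?_ <;> intros <;> simp
  rw [this, uu_zero, one_mul]

theorem MM_apply_elim {φ : W m F →ₗ[ℂ] V} (hφ : φ ∈ MM ρ ψ c) (a b : Fin m → F) (f : W m F) :
    φ (Mop ψ c (Sum.elim a b) f) = ρ (qq a b 0) (φ f) := by
  have := hφ.1 (Sum.elim a b) f
  rwa [Sum.elim_comp_inl, Sum.elim_comp_inr] at this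

theorem sR_split (a : Fin m → F) (s : F) : sR a s = sR 0 s + sR a 0 := by
  rw [sR_add, zero_add, add_zero]

theorem MM_dl {φ : W m F →ₗ[ℂ] V} (hφ : φ ∈ MM ρ ψ c) (x : Fin m → F) :
    φ (dl x) = ρ (mm (hb (-x))) (φ (dl 0)) := by
  rw [← qq_zero_left, ← MM_apply_elim hφ, Mop_dl]
  simp

theorem MM_dl_zero {φ : W m F →ₗ[ℂ] V} (hφ : φ ∈ MM ρ ψ c) : φ (dl 0) ∈ UU ρ ψ c := by
  intro a s
  rw [sR_split, uu_add, rho_mul]
  have h1 : ρ (uu (sR a 0)) (φ (dl 0)) = φ (dl 0) := by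
    rw [← qq_zero_right, ← MM_apply_elim hφ, Mop_dl]
    simp
  rw [h1, hφ.2]

theorem MM_ext {φ φ' : W m F →ₗ[ℂ] V} (hφ : φ ∈ MM ρ ψ c) (hφ' : φ' ∈ MM ρ ψ c)
    (h : φ (dl 0) = φ' (dl 0)) : φ = φ' := by
  ext f
  rw [f_eq_sum f, map_sum, map_sum]
  refine Finset.sum_congr rfl fun x _ => ?_
  rw [map_smul, map_smul, MM_dl hφ, MM_dl hφ', h]

theorem hb_uu (y a : Fin m → F) (s : F) :
    uu (sR a s) * mm (hb y) = mm (hb y) * uu (sR a (s + 2 * (a ⬝ᵥ y))) := by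
  rw [uu_mul_mm]
  congr 2
  apply Subtype.ext
  simp only [cong]
  rw [hb_inv_coe, transpose_add, transpose_one, transpose_vecMulVec, Matrix.add_mul,
    Matrix.one_mul, Matrix.mul_add, Matrix.mul_one, Matrix.add_mul, mul_vecMulVec, vecMulVec_mul,
    vecMulVec_mul_vecMulVec]
  have h1 : (sR a s).1 *ᵥ inc y = (a ⬝ᵥ y) • e0 m F := by
    rw [sR_coe, add_mulVec, add_mulVec, smul_mulVec, vecMulVec_mulVec, vecMulVec_mulVec,
      vecMulVec_mulVec, dotProduct_comm (e0 m F), inc_dot_e0, inc_dot_inc]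
    simp
  have h2 : inc y ᵥ* (sR a s).1 = (a ⬝ᵥ y) • e0 m F := by
    have := (sR a s).2
    rw [mem_Sym] at this
    rw [← mulVec_transpose, this, h1]
  rw [h1, h2, sR_coe, sR_coe, smul_dotProduct, dotProduct_comm (e0 m F), inc_dot_e0]
  ext i j
  simp [vecMulVec_apply]
  ring

/-- the linear map attached to a vector -/
noncomputable def lf (ρ : Representation ℂ (Sp (m + 1) F) V) (v : V) : W m F →ₗ[ℂ] V where
  toFun f := ∑ x, f x • ρ (mm (hb (-x))) v
  map_add' f g := by simp [add_smul, Finset.sum_add_distrib]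
  map_smul' a f := by simp [mul_smul, Finset.smul_sum]

theorem lf_apply (v : V) (f : W m F) : lf ρ v f = ∑ x, f x • ρ (mm (hb (-x))) v := rfl

theorem lf_dl (v : V) (x : Fin m → F) : lf ρ v (dl x) = ρ (mm (hb (-x))) v := by
  classical
  rw [lf_apply, Finset.sum_eq_single x]
  · rw [dl_self, one_smul]
  · intro y _ hy
    rw [dl_ne hy, zero_smul]
  · simp

theorem lf_dl_zero (v : V) : lf ρ v (dl 0) = v := by
  rw [lf_dl, neg_zero, hb_zero, map_one, map_one, Module.End.one_apply]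

theorem lf_mem {v : V} (hv : v ∈ UU ρ ψ c) : lf ρ v ∈ MM ρ ψ c := by
  have hbasis : ∀ {A B : W m F →ₗ[ℂ] V}, (∀ x, A (dl x) = B (dl x)) → A = B := by
    intro A B h
    ext f
    rw [f_eq_sum f, map_sum, map_sum]
    refine Finset.sum_congr rfl fun x _ => ?_
    rw [map_smul, map_smul, h]
  constructor
  · intro w f
    have h : (lf ρ v) ∘ₗ (Mop ψ c w) = (ρ (qq (w ∘ Sum.inl) (w ∘ Sum.inr) 0)) ∘ₗ (lf ρ v) := by
      apply hbasis
      intro x
      obtain ⟨a, b, rfl⟩ : ∃ a b, w = Sum.elim a b := ⟨_, _, (Sum.elim_comp_inl_inr w).symm⟩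
      rw [LinearMap.comp_apply, LinearMap.comp_apply, Mop_dl, map_smul, lf_dl, lf_dl,
        Sum.elim_comp_inl, Sum.elim_comp_inr, qq, ← rho_mul, mul_assoc, ← map_mul, ← hb_add,
        hb_uu, rho_mul, hv, map_smul, neg_sub, sub_eq_add_neg b x]
      congr 2
      simp only [dotProduct_add, dotProduct_sub, dotProduct_neg]
      ring
    exact LinearMap.congr_fun h f
  · intro s f
    have h : (ρ (uu (sR 0 s))) ∘ₗ (lf ρ v) = ψ (c * s) • (lf ρ v) := by
      apply hbasis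
      intro x
      rw [LinearMap.comp_apply, LinearMap.smul_apply, lf_dl, ← rho_mul, hb_uu, rho_mul, hv,
        map_smul]
      simp
    exact LinearMap.congr_fun h f

/-- evaluation at `dl 0` is an isomorphism of `MM` with `UU`. -/
noncomputable def evE (ρ : Representation ℂ (Sp (m + 1) F) V) (ψ : AddChar F ℂ) (c : F) :
    MM ρ ψ c ≃ₗ[ℂ] UU ρ ψ c where
  toFun φ := ⟨φ.1 (dl 0), MM_dl_zero φ.2⟩
  map_add' φ φ' := rfl
  map_smul' a φ := rfl
  invFun v := ⟨lf ρ v.1, lf_mem v.2⟩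
  left_inv φ := Subtype.ext (MM_ext (lf_mem (MM_dl_zero φ.2)) φ.2 (lf_dl_zero _))
  right_inv v := Subtype.ext (lf_dl_zero _)

theorem evE_coe (φ : MM ρ ψ c) : (evE ρ ψ c φ : V) = φ.1 (dl 0) := rfl

theorem evE_symm_coe (v : UU ρ ψ c) : ((evE ρ ψ c).symm v).1 = lf ρ v.1 := rfl

/-! ### Weights -/

theorem pr_up (T' : Matrix (Fin m) (Fin m) F) (a : Fin m → F) (s : F) (S' : Sym m F) :
    pr (up c T') (sR a s + upS S').1 = c * s + pr T' S'.1 := by
  simp [pr, Fin.sum_univ_succ, upS_coe]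

theorem up_mem {T' : Matrix (Fin m) (Fin m) F} (hT : T' ∈ Sym m F) :
    up c T' ∈ Sym (m + 1) F := by
  rw [mem_Sym] at hT ⊢
  rw [up_transpose, hT]

theorem DS_dl_zero (S : Sym m F) : DS ψ c S (dl 0 : W m F) = dl 0 := by
  ext x
  rw [DS_apply]
  by_cases h : x = 0
  · subst h
    simp
  · rw [dl_ne h, mul_zero]

/-- **Weights of `tau`.** -/
theorem mem_Wt_tau {ω : Representation ℂ (Sp m F) (W m F)} (hω : IsWeil ψ c ω) (j : Fin m)
    {φ : MM ρ ψ c} {T' : Matrix (Fin m) (Fin m) F} :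
    φ ∈ Wt (tau hω j ρ) ψ T' ↔ φ.1 (dl 0) ∈ Wt ρ ψ (up c T') := by
  have key : ∀ S' : Sym m F, (tau hω j ρ (uu S') φ).1 (dl 0) = ρ (uu (upS S')) (φ.1 (dl 0)) := by
    intro S'
    have h := emb_apply hω j (uu S') φ (dl 0)
    rw [hω.w1, DS_dl_zero, emb_uu] at h
    exact h.symm
  constructor
  · intro h S
    obtain ⟨a, s, S', rfl⟩ := sym_decomp S
    rw [pr_up, uu_add, rho_mul, ← key, h S']
    show ρ (uu (sR a s)) (ψ (pr T' S'.1) • φ.1 (dl 0)) = _
    rw [map_smul, MM_dl_zero φ.2, smul_smul, AddChar.map_add_eq_mul, mul_comm]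
  · intro h S'
    apply Subtype.ext
    apply MM_ext (tau hω j ρ (uu S') φ).2 (ψ (pr T' S'.1) • φ).2
    rw [key]
    have h1 := h (sR 0 0 + upS S')
    rw [pr_up] at h1
    have h0 : (sR (0 : Fin m → F) 0) = 0 := by
      apply Subtype.ext
      refine up_ext ?_ ?_ ?_ ?_ <;> intros <;> simp
    rw [h0, zero_add, mul_zero, zero_add] at h1
    exact h1

theorem ev_ne_zero {φ : MM ρ ψ c} (h : φ ≠ 0) : φ.1 (dl 0) ≠ 0 := by
  intro h0
  apply h
  apply Subtype.ext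
  apply MM_ext φ.2 (0 : MM ρ ψ c).2
  rw [h0]; rfl

/-- If all weights of `V` have rank at most two, those of `tau` have rank at most one. -/
theorem tau_rkOne {ω : Representation ℂ (Sp m F) (W m F)} (hω : IsWeil ψ c ω) (j : Fin m)
    (hR : ∀ T ∈ Sym (m + 1) F, ∀ v ∈ Wt ρ ψ T, v ≠ 0 → ∀ r s : Fin 3 → Fin (m + 1),
      (T.submatrix r s).det = 0) : RkOne (tau hω j ρ) ψ := by
  intro T' hT' φ hφ hne i k l n
  have h := hR (up c T') (up_mem hT') _ ((mem_Wt_tau hω j).mp hφ) (ev_ne_zero hne)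
    ![0, i.succ, l.succ] ![0, k.succ, n.succ]
  rw [det_fin_three] at h
  simp only [submatrix_apply, cons_val_zero, cons_val_one, cons_val_two, head_cons, tail_cons,
    up_00, up_0s, up_s0, up_ss] at h
  have h2 : c * (T' i k * T' l n - T' i n * T' l k) = 0 := by
    linear_combination h
  rcases mul_eq_zero.mp h2 with h3 | h3
  · exact absurd h3 hω.lam0
  · exact sub_eq_zero.mp h3

/-! ### The subspace of `V` attached to a submodule of `MM` -/

/-- `{φ f}` spanned -/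
def LL (K : Submodule ℂ (MM ρ ψ c)) : Submodule ℂ V :=
  Submodule.span ℂ {v | ∃ φ ∈ K, ∃ f : W m F, v = φ.1 f}

theorem mem_LL {K : Submodule ℂ (MM ρ ψ c)} {φ : MM ρ ψ c} (hφ : φ ∈ K) (f : W m F) :
    φ.1 f ∈ LL K := Submodule.subset_span ⟨φ, hφ, f, rfl⟩

theorem LL_emb {ω : Representation ℂ (Sp m F) (W m F)} (hω : IsWeil ψ c ω) (j : Fin m)
    {K : Submodule ℂ (MM ρ ψ c)} (hK : ∀ g, ∀ φ ∈ K, tau hω j ρ g φ ∈ K) (g : Sp m F) {v : V}
    (hv : v ∈ LL K) : ρ (emb g) v ∈ LL K := by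
  have h : LL K ≤ (LL K).comap (ρ (emb g)) := by
    rw [LL, Submodule.span_le]
    rintro _ ⟨φ, hφ, f, rfl⟩
    show ρ (emb g) (φ.1 f) ∈ LL K
    rw [emb_apply hω j]
    exact mem_LL (hK g φ hφ) _
  exact h hv

theorem LL_qq {K : Submodule ℂ (MM ρ ψ c)} (a b : Fin m → F) (s : F) {v : V}
    (hv : v ∈ LL K) : ρ (qq a b s) v ∈ LL K := by
  have h : LL K ≤ (LL K).comap (ρ (qq a b s)) := by
    rw [LL, Submodule.span_le]
    rintro _ ⟨φ, hφ, f, rfl⟩
    show ρ (qq a b s) (φ.1 f) ∈ LL K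
    have h1 : qq a b s = uu (sR 0 s) * qq a b 0 := by
      rw [qq, qq, ← mul_assoc, ← uu_add, sR_add]
      congr 3
      · simp
      · ring
    rw [h1, rho_mul, ← MM_apply_elim φ.2, φ.2.2]
    exact Submodule.smul_mem _ _ (mem_LL hφ _)
  exact h hv

theorem LL_hb {K : Submodule ℂ (MM ρ ψ c)} (b : Fin m → F) {v : V}
    (hv : v ∈ LL K) : ρ (mm (hb b)) v ∈ LL K := by
  rw [← qq_zero_left]
  exact LL_qq _ _ _ hv

theorem LL_sR {K : Submodule ℂ (MM ρ ψ c)} (a : Fin m → F) (s : F) {v : V}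
    (hv : v ∈ LL K) : ρ (uu (sR a s)) v ∈ LL K := by
  rw [← qq_zero_right]
  exact LL_qq _ _ _ hv

theorem LL_uu {ω : Representation ℂ (Sp m F) (W m F)} (hω : IsWeil ψ c ω) (j : Fin m)
    {K : Submodule ℂ (MM ρ ψ c)} (hK : ∀ g, ∀ φ ∈ K, tau hω j ρ g φ ∈ K) (S : Sym (m + 1) F) {v : V}
    (hv : v ∈ LL K) : ρ (uu S) v ∈ LL K := by
  obtain ⟨a, s, S', rfl⟩ := sym_decomp S
  rw [uu_add, rho_mul]
  apply LL_sR
  rw [← emb_uu]
  exact LL_emb hω j hK _ hv

/-- The centre acts by `ψ (c s)` on `LL K`. -/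
theorem LL_ctr {K : Submodule ℂ (MM ρ ψ c)} (s : F) {v : V}
    (hv : v ∈ LL K) : ρ (uu (sR 0 s)) v = ψ (c * s) • v := by
  let U : Submodule ℂ V := LinearMap.ker (ρ (uu (sR 0 s)) - ψ (c * s) • LinearMap.id)
  have h : LL K ≤ U := by
    rw [LL, Submodule.span_le]
    rintro _ ⟨φ, hφ, f, rfl⟩
    show _ ∈ LinearMap.ker _
    rw [LinearMap.mem_ker, LinearMap.sub_apply, φ.2.2]
    simp
  have := h hv
  rw [LinearMap.mem_ker, LinearMap.sub_apply, sub_eq_zero] at this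
  exact this

/-- `dim LL K ≤ q^m dim K`. -/
theorem finrank_LL_le [FiniteDimensional ℂ V] (K : Submodule ℂ (MM ρ ψ c)) :
    finrank ℂ (LL K) ≤ Fintype.card F ^ m * finrank ℂ K := by
  classical
  haveI : Module.Finite ℂ (MM ρ ψ c) := inferInstance
  haveI : Module.Free ℂ K := Module.Free.of_divisionRing ℂ K
  let b := Module.finBasis ℂ K
  have h : LL K ≤ Submodule.span ℂ
      (Set.range fun p : (Fin m → F) × Fin (finrank ℂ K) => (b p.2).1.1 (dl p.1)) := by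
    rw [LL, Submodule.span_le]
    rintro _ ⟨φ, hφ, f, rfl⟩
    have h1 : φ = ∑ k, (b.repr ⟨φ, hφ⟩ k) • (b k).1 := by
      have := congrArg Subtype.val (b.sum_repr ⟨φ, hφ⟩)
      rw [Submodule.coe_sum] at this
      exact this.symm
    have h2 : φ.1 f = ∑ k, (b.repr ⟨φ, hφ⟩ k) • (b k).1.1 f := by
      conv_lhs => rw [h1]
      simp
    rw [h2]
    refine Submodule.sum_mem _ fun k _ => Submodule.smul_mem _ _ ?_
    rw [f_eq_sum f, map_sum]
    refine Submodule.sum_mem _ fun x _ => ?_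
    rw [map_smul]
    exact Submodule.smul_mem _ _ (Submodule.subset_span ⟨(x, k), rfl⟩)
  refine (Submodule.finrank_mono h).trans ((finrank_range_le_card _).trans ?_)
  rw [Fintype.card_prod, Fintype.card_fin, Fintype.card_fun, Fintype.card_fin]

/-- All vectors with central character `c` are in `LL ⊤`: the isotypic part. -/
theorem mem_LL_top {v : V} (hv : v ∈ UU ρ ψ c) : v ∈ LL (⊤ : Submodule ℂ (MM ρ ψ c)) := by
  have := mem_LL (K := (⊤ : Submodule ℂ (MM ρ ψ c))) (φ := ⟨lf ρ v, lf_mem hv⟩) trivial (dl 0)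
  rwa [lf_dl_zero] at this

end Cfsg.Agent.H495.TI
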